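import Cfsg.Agent.H777.M5.PGSub
import Cfsg.Agent.H411.M5.Abel

/-!
# Facts on `PG` needed for `not_conj_SA` (helper738)
-/

set_option autoImplicit false

namespace Cfsg.Agent.H738.M5

open Cfsg.Agent.H411.M5 Cfsg.Agent.H777.M5
open scoped commutatorElement

theorem mul_inv_v {p q : PG} (hi : p.i = q.i) (hj : p.j = q.j) : (p * q⁻¹).v = p.v - q.v := by
  rw [PG.mul_v, PG.inv_v, act_neg, act_act, hi, hj, add_neg_cancel, add_neg_cancel, act_one,
    sub_eq_add_neg]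

/-- membership in the second centre -/
theorem mul_inv_mem_SL {p q : PG} (hi : p.i = q.i) (hj : p.j = q.j) :
    p * q⁻¹ ∈ PG.SL ↔ p.v 1 = q.v 1 ∧ p.v 2 = q.v 2 ∧ p.v 3 = q.v 3 ∧ p.v 4 = q.v 4 ∧
      p.v 5 = q.v 5 := by
  rw [PG.mem_SL, mul_inv_v hi hj]
  simp only [Pi.sub_apply, PG.mul_i, PG.mul_j, PG.inv_i, PG.inv_j, hi, hj, add_neg_cancel, true_and,
    sub_eq_zero]

theorem comm_mem_SL {y c : PG} : y * c * y⁻¹ * c⁻¹ ∈ PG.SL ↔
    (y * c).v 1 = (c * y).v 1 ∧ (y * c).v 2 = (c * y).v 2 ∧ (y * c).v 3 = (c * y).v 3 ∧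
      (y * c).v 4 = (c * y).v 4 ∧ (y * c).v 5 = (c * y).v 5 := by
  have e : y * c * y⁻¹ * c⁻¹ = (y * c) * (c * y)⁻¹ := by group
  rw [e, mul_inv_mem_SL (by rw [PG.mul_i, PG.mul_i, add_comm]) (by rw [PG.mul_j, PG.mul_j, add_comm])]

/-- `[SA, SC] ≤ SL` -/
theorem comm_SA {y c : PG} (hy : y ∈ PG.SA) (hc : c ∈ PG.SC) : y * c * y⁻¹ * c⁻¹ ∈ PG.SL := by
  obtain ⟨h1, h2, h3, h4, h5⟩ := hy
  have hc5 : c.v 5 = 0 := hc
  rw [comm_mem_SL]
  refine ⟨?_, ?_, ?_, ?_, ?_⟩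
  · simp [act1, h1, h2, h3, h4, h5, add_comm]
  · simp [act2, h1, h3, h5, add_comm]
  · simp [act3, h1, h2, h3, h4, h5, add_comm]
  · simp [act4, h2, h4, h5, add_comm]
  · simp [act5, h5, hc5, add_comm]

/-- the converse -/
theorem mem_SA_of_comm {y : PG} (hy : y ∈ PG.SC) (h : ∀ c ∈ PG.SC, y * c * y⁻¹ * c⁻¹ ∈ PG.SL) :
    y ∈ PG.SA := by
  have hy5 : y.v 5 = 0 := hy
  have h1 := comm_mem_SL.1 (h ⟨Pi.single 2 1, 0, 0, 0⟩ (by
    show (Pi.single 2 1 : V6) 5 = 0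
    simp))
  have h2 := comm_mem_SL.1 (h ⟨0, 0, 1, 0⟩ rfl)
  obtain ⟨a1, -, a3, -, -⟩ := h1
  obtain ⟨b1, -, b3, -, -⟩ := h2
  have n12 : (1 : Fin 6) ≠ 2 := by decide
  have n42 : (4 : Fin 6) ≠ 2 := by decide
  have n52 : (5 : Fin 6) ≠ 2 := by decide
  have n32 : (3 : Fin 6) ≠ 2 := by decide
  simp only [PG.mul_v, Pi.add_apply, act1, act3, Pi.zero_apply, Pi.single_apply, if_neg n12,
    if_neg n42, if_neg n52, if_neg n32, if_true] at a1 a3 b1 b3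
  have hj : y.j = 0 := by linear_combination a1
  have hi : y.i = 0 := by linear_combination 3 * a3 - y.i * Cfsg.Agent.H411.M5.h5
  have h4 : y.v 4 = 0 := by linear_combination b1
  have h2 : y.v 2 = 0 := by
    linear_combination -3 * b3 - y.v 2 * Cfsg.Agent.H411.M5.h5 + 3 * hy5
  exact ⟨hi, hj, h2, h4, hy5⟩

/-- `SC` centralizes `SL` -/
theorem comm_SC_SL {y l : PG} (hy : y ∈ PG.SC) (hl : l ∈ PG.SL) : y * l = l * y := by
  have h1 : l ∈ Subgroup.upperCentralSeries PG 2 := by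
    obtain ⟨h1, h2, h3, h4, h5, h6, h7⟩ := hl
    refine mem_Z2.2 ⟨⟨l.v 0, ?_⟩, h1, h2⟩
    funext k
    fin_cases k
    · simp
    · simpa using h3
    · simpa using h4
    · simpa using h5
    · simpa using h6
    · simpa using h7
  exact ((Subgroup.mem_centralizer_iff.1 (mem_centralizer_Z2.2 hy)) l h1).symm

/-- only `SC` centralizes `SL` -/
theorem mem_SC_of_comm {y : PG} (h : y * ⟨Pi.single 0 1, 0, 0, 0⟩ = ⟨Pi.single 0 1, 0, 0, 0⟩ * y) :
    y ∈ PG.SC := by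
  show y.v 5 = 0
  have h1 := congrArg PG.c h
  simp only [PG.mul_c, act_one, act_single_zero, om_single_zero] at h1
  rw [om_swap y.v, om_single_zero] at h1
  linear_combination -h1 - y.v 5 * Cfsg.Agent.H411.M5.h5

theorem e0_mem_SL : (⟨Pi.single 0 1, 0, 0, 0⟩ : PG) ∈ PG.SL :=
  ⟨rfl, rfl, by simp, by simp, by simp, by simp, by simp⟩

theorem x_mem_SL : (⟨0, 1, 0, 0⟩ : PG) ∈ PG.SL := ⟨rfl, rfl, rfl, rfl, rfl, rfl, rfl⟩

theorem x_mem_center : (⟨0, 1, 0, 0⟩ : PG) ∈ Subgroup.center PG := mem_center.2 ⟨rfl, rfl, rfl⟩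

theorem card_SC : Nat.card PG.SC = 5 ^ 8 := by
  have h : PG.SC = lastHom.ker := by
    ext g
    rw [mem_ker, PG.mem_SC]
  rw [h, card_ker]

/-- `[SW, SW] ≤ Z` -/
theorem comm_SW {y z : PG} (hy : y ∈ PG.SW) (hz : z ∈ PG.SW) :
    (y * z * y⁻¹ * z⁻¹ : PG) ∈ Subgroup.center PG := by
  have h1 : ⁅y, z⁆ ∈ Subgroup.center PG := by
    rw [comm_mem_center, PG.mul_v, PG.mul_v, hy.1, hy.2, hz.1, hz.2, act_one, act_one, add_comm]
  rwa [commutatorElement_def] at h1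

/-- `W ∩ C(L)` -/
def SX : Subgroup PG := PG.SW ⊓ PG.SC

theorem card_SX : 5 ^ 6 ≤ Nat.card SX := by
  let f : ↥PG.SC →* Multiplicative (ZMod 5 × ZMod 5) := ijHom.comp PG.SC.subtype
  have h1 : Nat.card PG.SC = Nat.card f.range * Nat.card f.ker := by
    rw [← Subgroup.card_mul_index f.ker, Subgroup.index_ker, mul_comm]
  have h2 : Nat.card f.range ≤ 25 := by
    have h3 := Nat.card_le_card_of_injective (fun z : f.range => (z : Multiplicative (ZMod 5 × ZMod 5)))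
      Subtype.val_injective
    have h4 : Nat.card (Multiplicative (ZMod 5 × ZMod 5)) = 25 := by
      rw [Nat.card_congr Multiplicative.toAdd, Nat.card_prod]; simp
    rwa [h4] at h3
  have h5 : Nat.card f.ker ≤ Nat.card SX := by
    refine Nat.card_le_card_of_injective (fun z : f.ker => (⟨((z : ↥PG.SC) : PG), ?_⟩ : SX)) ?_
    · refine ⟨?_, z.1.2⟩
      exact ijHom_eq_one.1 z.2
    · intro z z' h
      exact Subtype.ext (Subtype.ext (congrArg (fun t : SX => (t : PG)) h))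
  rw [card_SC] at h1
  by_contra hlt
  push Not at hlt
  have h6 : Nat.card f.ker < 5 ^ 6 := lt_of_le_of_lt h5 hlt
  have h7 : Nat.card f.range * Nat.card f.ker < 25 * 5 ^ 6 :=
    lt_of_le_of_lt (Nat.mul_le_mul_right _ h2) (Nat.mul_lt_mul_of_pos_left h6 (by norm_num))
  rw [← h1] at h7
  norm_num at h7

end Cfsg.Agent.H738.M5
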