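import Cfsg.Agent.H777.M5.Amb
import Cfsg.Agent.H738.M5.PGa
import Cfsg.Agent.H427.TWBasic

/-!
# `SL, SV` are not conjugate to `SL, SA` (helper738, task S5230-P3)
-/

set_option autoImplicit false

namespace Cfsg.Agent.H738.M5

open Cfsg.Agent.H411.M5 Cfsg.Agent.H777.M5 Cfsg.Agent.H777.M5.MX Matrix
open scoped commutatorElement

variable {G : Type} [Group G] [Finite G] (M : MX G)

theorem w_zero : M.w 0 = 1 := by
  have := M.w_mul 0 0
  rw [add_zero, om_zero_left, mul_zero, ZMod.val_zero, pow_zero, mul_one] at this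
  exact mul_eq_left.1 this

theorem f_w (v : V6) : M.f ⟨v, 0, 0, 0⟩ = M.w v := by
  rw [f_apply]
  simp

theorem f_x : M.f ⟨0, 1, 0, 0⟩ = M.x := by
  rw [f_apply]
  show M.w 0 * M.x ^ (1 : ZMod 5).val * (M.a ^ (0 : ZMod 5).val * M.b ^ (0 : ZMod 5).val) = M.x
  rw [w_zero, ZMod.val_one, ZMod.val_zero, pow_zero, pow_zero, pow_one, one_mul, mul_one, mul_one]

theorem x_pow_val (n : ℕ) : M.x ^ ((n : ZMod 5)).val = M.x ^ n := by
  rw [ZMod.val_natCast]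
  conv_rhs => rw [← Nat.div_add_mod n 5, pow_add, pow_mul, M.x_five, one_pow, one_mul]

theorem mem_W {y : G} : y ∈ M.W ↔ ∃ (v : V6) (n : ℕ), y = M.w v * M.x ^ n := by
  constructor
  · rintro ⟨p, ⟨h1, h2⟩, rfl⟩
    refine ⟨p.v, p.c.val, ?_⟩
    rw [f_apply, h1, h2]
    simp
  · rintro ⟨v, n, rfl⟩
    refine ⟨⟨v, n, 0, 0⟩, ⟨rfl, rfl⟩, ?_⟩
    rw [f_apply]
    simp only [ZMod.val_zero, pow_zero, mul_one, x_pow_val]

theorem f_comm_x (p : PG) : M.f p * M.x = M.x * M.f p := by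
  rw [← f_x, ← map_mul, ← map_mul]
  congr 1
  exact (Subgroup.mem_center_iff.1 x_mem_center p)

/-- `W` is normal in `C(x)`. -/
theorem W_conj {g y : G} (hg : g * M.x = M.x * g) (hy : y ∈ M.W) : g * y * g⁻¹ ∈ M.W := by
  obtain ⟨v, n, rfl⟩ := (mem_W M).1 hy
  obtain ⟨v', c, h⟩ := M.normal g hg v
  refine (mem_W M).2 ⟨v', c + n, ?_⟩
  have h1 : g * M.x ^ n = M.x ^ n * g := ((show Commute g M.x from hg).pow_right n).eq
  calc g * (M.w v * M.x ^ n) * g⁻¹ = (g * M.w v * g⁻¹) * (g * M.x ^ n * g⁻¹) := by group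
    _ = _ := by rw [h, h1, mul_inv_cancel_right, pow_add, mul_assoc]

/-- A 5-group normalized by `S` is contained in `S`. -/
theorem le_S_of_normal {R : Subgroup G} (hR : IsPGroup 5 R)
    (hn : ∀ s ∈ M.S, ∀ r ∈ R, s * r * s⁻¹ ∈ R) : R ≤ M.S := by
  have h1 : IsPGroup 5 (M.S ⊔ R : Subgroup G) :=
    M.S_isPGroup.to_sup_of_normal_right' hR (H427.le_normalizer_of_conj hn)
  have h2 := M.T.3 h1 (show (M.T : Subgroup G) ≤ M.S ⊔ R from le_sup_left)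
  have h3 : M.S ⊔ R = M.S := h2
  rw [← h3]
  exact le_sup_right

/-! ### Acting as a matrix modulo `x` -/

/-- `h` acts on `W` modulo `x` as the matrix `A`. -/
def Acts (h : G) (A : Matrix (Fin 6) (Fin 6) (ZMod 5)) : Prop :=
  ∀ u, ∃ n : ℕ, h * M.w u * h⁻¹ = M.w (A *ᵥ u) * M.x ^ n

variable {M}

theorem Acts.unique {h : G} {A B : Matrix (Fin 6) (Fin 6) (ZMod 5)} (hA : Acts M h A)
    (hB : Acts M h B) : A = B := by
  have key : ∀ u, A *ᵥ u = B *ᵥ u := by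
    intro u
    obtain ⟨n, h1⟩ := hA u
    obtain ⟨m, h2⟩ := hB u
    rw [h1] at h2
    have h3 : M.f ⟨A *ᵥ u, n, 0, 0⟩ = M.f ⟨B *ᵥ u, m, 0, 0⟩ := by
      rw [f_apply, f_apply]
      simp only [ZMod.val_zero, pow_zero, mul_one, x_pow_val]
      exact h2
    exact congrArg PG.v (M.f_injective h3)
  ext i j
  have h1 := congrFun (key (Pi.single j 1)) i
  rwa [mulVec_single_one, mulVec_single_one] at h1

theorem Acts.mul {h k : G} {A B : Matrix (Fin 6) (Fin 6) (ZMod 5)} (hx : h * M.x = M.x * h)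
    (hA : Acts M h A) (hB : Acts M k B) : Acts M (h * k) (A * B) := by
  intro u
  obtain ⟨n, h1⟩ := hB u
  obtain ⟨m, h2⟩ := hA (B *ᵥ u)
  refine ⟨m + n, ?_⟩
  have h3 : h * M.x ^ n = M.x ^ n * h := ((show Commute h M.x from hx).pow_right n).eq
  calc h * k * M.w u * (h * k)⁻¹ = h * (k * M.w u * k⁻¹) * h⁻¹ := by group
    _ = h * (M.w (B *ᵥ u) * M.x ^ n) * h⁻¹ := by rw [h1]
    _ = (h * M.w (B *ᵥ u) * h⁻¹) * (h * M.x ^ n * h⁻¹) := by group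
    _ = _ := by rw [h2, h3, mul_inv_cancel_right, pow_add, mul_assoc, mulVec_mulVec]

variable (M)

theorem acts_f (p : PG) : Acts M (M.f p) (mat p.i p.j) := by
  intro u
  refine ⟨(p * ⟨u, 0, 0, 0⟩ * p⁻¹).c.val, ?_⟩
  rw [← f_w, ← map_mul, ← map_inv, ← map_mul, f_apply]
  have hi : (p * ⟨u, 0, 0, 0⟩ * p⁻¹).i = 0 := by simp
  have hj : (p * ⟨u, 0, 0, 0⟩ * p⁻¹).j = 0 := by simp
  have hv : (p * ⟨u, 0, 0, 0⟩ * p⁻¹).v = act p.i p.j u := by
    simp only [PG.mul_v, PG.mul_i, PG.mul_j, PG.inv_v, act_neg, act_act, add_zero, add_neg_cancel,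
      act_one]
    abel
  rw [hi, hj, hv]
  simp only [ZMod.val_zero, pow_zero, mul_one]
  rfl

theorem acts_b' : Acts M M.b' bpM := fun u => ⟨0, by rw [pow_zero, mul_one]; exact M.b'_w u⟩

theorem bpM_mat : ∀ i j k l : ZMod 5, bpM * matP i j = matP k l * bpM → i = 0 ∧ j = 0 := by
  decide +kernel

/-- Elements of `S` conjugate under `b'` to elements of `S` are in `W`. -/
theorem mem_W_of_b' {s : G} (hs : s ∈ M.S) (hs' : M.b' * s * M.b'⁻¹ ∈ M.S) : s ∈ M.W := by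
  obtain ⟨p, rfl⟩ := hs
  obtain ⟨q, hq⟩ := hs'
  have h1 : M.b' * M.f p = M.f q * M.b' := by rw [hq]; group
  have h2 := (acts_b' M).mul M.b'x (acts_f M p)
  have h3 := (acts_f M q).mul (f_comm_x M q) (acts_b' M)
  rw [h1] at h2
  have h4 := h2.unique h3
  rw [mat_eq, mat_eq] at h4
  obtain ⟨h5, h6⟩ := bpM_mat _ _ _ _ h4
  exact ⟨p, ⟨h5, h6⟩, rfl⟩

omit [Finite G] in
theorem orderOf_conj' (g y : G) : orderOf (g * y * g⁻¹) = orderOf y :=
  MulEquiv.orderOf_eq (MulAut.conj g) y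

omit [Finite G] in
theorem orderOf_x : orderOf M.x = 5 := by
  have : Fact (Nat.Prime 5) := ⟨Nat.prime_five⟩
  exact orderOf_eq_prime M.x_five M.x_ne

/-- Subgroups of order 5. -/
theorem zpowers_eq {x c : G} (hx : orderOf x = 5) (hc : c ∈ Subgroup.zpowers x) (hc1 : c ≠ 1) :
    Subgroup.zpowers c = Subgroup.zpowers x := by
  apply Subgroup.eq_of_le_of_card_ge
  · rwa [Subgroup.zpowers_le]
  · rw [Nat.card_zpowers, Nat.card_zpowers, hx]
    have h1 : orderOf c ∣ 5 := by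
      rw [← hx]; exact orderOf_dvd_of_mem_zpowers hc
    rcases (Nat.dvd_prime Nat.prime_five).1 h1 with h2 | h2
    · exact absurd (orderOf_eq_one_iff.1 h2) hc1
    · exact h2.ge

theorem exists_SV : ∃ y : PG, y ∈ PG.SV ∧ y.i ≠ 0 :=
  ⟨⟨![0, -1, 0, -1, 2, 0], 0, 1, 0⟩, by
    refine ⟨rfl, ?_, rfl, ?_, ?_⟩ <;> decide, by decide⟩

/-- `g x g⁻¹ ∉ ⟨x⟩`. -/
theorem case_a (g : G) (hV : ∀ y ∈ PG.SV, ∃ p ∈ PG.SA, M.f p = g * M.f y * g⁻¹)
    (h : g * M.x * g⁻¹ ∈ Subgroup.zpowers M.x) : False := by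
  have h1 : g * M.x * g⁻¹ ≠ 1 := by
    intro h2
    apply M.x_ne
    calc M.x = g⁻¹ * (g * M.x * g⁻¹) * g := by group
      _ = 1 := by rw [h2]; group
  have h2 : M.x ∈ Subgroup.zpowers (g * M.x * g⁻¹) := by
    rw [zpowers_eq (orderOf_x M) h h1]; exact Subgroup.mem_zpowers _
  obtain ⟨m, hm⟩ := h2
  have hD : ∀ d, d * M.x = M.x * d → (g * d * g⁻¹) * M.x = M.x * (g * d * g⁻¹) := by
    intro d hd
    have h3 : Commute (g * d * g⁻¹) (g * M.x * g⁻¹) := by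
      show g * d * g⁻¹ * (g * M.x * g⁻¹) = g * M.x * g⁻¹ * (g * d * g⁻¹)
      calc g * d * g⁻¹ * (g * M.x * g⁻¹) = g * (d * M.x) * g⁻¹ := by group
        _ = g * (M.x * d) * g⁻¹ := by rw [hd]
        _ = _ := by group
    have h4 := h3.zpow_right m
    simp only at hm
    rw [hm] at h4
    exact h4
  set R : Subgroup G := M.W.map (MulAut.conj g⁻¹).toMonoidHom with hR
  have hRm : ∀ y ∈ M.W, g⁻¹ * y * g ∈ R := by
    intro y hy
    refine ⟨y, hy, ?_⟩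
    show g⁻¹ * y * g⁻¹⁻¹ = _
    rw [inv_inv]
  have hRn : ∀ d, d * M.x = M.x * d → ∀ r ∈ R, d * r * d⁻¹ ∈ R := by
    rintro d hd _ ⟨y, hy, rfl⟩
    have h3 := hRm _ (W_conj M (hD d hd) hy)
    have e : d * (MulAut.conj g⁻¹).toMonoidHom y * d⁻¹ =
        g⁻¹ * (g * d * g⁻¹ * y * (g * d * g⁻¹)⁻¹) * g := by
      show d * (g⁻¹ * y * g⁻¹⁻¹) * d⁻¹ = _
      group
    rw [e]; exact h3
  have hRp : IsPGroup 5 R := (M.S_isPGroup.to_le (M.map_le_S _)).map _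
  have hRS : R ≤ M.S := by
    refine le_S_of_normal M hRp ?_
    rintro _ ⟨p, rfl⟩ r hr
    exact hRn _ (f_comm_x M p) r hr
  have hRW : R ≤ M.W := fun r hr => mem_W_of_b' M (hRS hr) (hRS (hRn _ M.b'x r hr))
  obtain ⟨y, hy, hyi⟩ := exists_SV
  obtain ⟨p, hp, hpy⟩ := hV y hy
  have h5 : M.f y ∈ M.W := by
    apply hRW
    have h6 := hRm (M.f p) ⟨p, ⟨hp.1, hp.2.1⟩, rfl⟩
    rw [hpy] at h6
    have e : g⁻¹ * (g * M.f y * g⁻¹) * g = M.f y := by group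
    rwa [e] at h6
  obtain ⟨q, hq, hqy⟩ := h5
  rw [← M.f_injective hqy] at hyi
  exact hyi hq.1

/-- 5-subgroups of `C(L)` have order at most `5 ^ 8`. -/
theorem card_le_of_comm_L {Q : Subgroup G} (hQ : IsPGroup 5 Q)
    (hQL : ∀ q ∈ Q, ∀ l ∈ M.L, q * l = l * q) : Nat.card Q ≤ 5 ^ 8 := by
  obtain ⟨n, hn⟩ := IsPGroup.iff_card.1 hQ
  rw [hn]
  by_contra hlt
  have hn9 : 9 ≤ n := by
    by_contra h9
    exact hlt (Nat.pow_le_pow_right (by norm_num) (by omega))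
  obtain ⟨P, hP⟩ := hQ.exists_le_sylow
  have hcard : Nat.card (P : Subgroup G) = 5 ^ 9 := by
    rw [Sylow.card_eq_multiplicity, M.factorization_card]
  have hQP : Q = (P : Subgroup G) := by
    apply Subgroup.eq_of_le_of_card_ge hP
    rw [hcard, hn]
    exact Nat.pow_le_pow_right (by norm_num) hn9
  obtain ⟨k, hk⟩ := MulAction.exists_smul_eq G M.T P
  have hkS : ∀ s ∈ M.S, k * s * k⁻¹ ∈ Q := by
    intro s hs
    rw [hQP, ← hk, Sylow.coe_subgroup_smul]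
    exact ⟨s, hs, rfl⟩
  -- `k⁻¹ l k` commutes with `S`
  have key : ∀ l ∈ M.L, k⁻¹ * l * k ∈ Subgroup.zpowers M.x := by
    intro l hl
    have h1 : ∀ s ∈ M.S, s * (k⁻¹ * l * k) = (k⁻¹ * l * k) * s := by
      intro s hs
      have h2 := hQL _ (hkS s hs) l hl
      calc s * (k⁻¹ * l * k) = k⁻¹ * ((k * s * k⁻¹) * l) * k := by group
        _ = k⁻¹ * (l * (k * s * k⁻¹)) * k := by rw [h2]
        _ = _ := by group
    have h3 : IsPGroup 5 (Subgroup.zpowers (k⁻¹ * l * k)) := by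
      have h4 : l ^ 5 = 1 ∨ True := Or.inr trivial
      obtain ⟨p, -, rfl⟩ := hl
      have h5 : IsPGroup 5 (Subgroup.zpowers (M.f p)) :=
        M.S_isPGroup.to_le (by rw [Subgroup.zpowers_le]; exact M.mem_S)
      have h6 : Subgroup.zpowers (k⁻¹ * M.f p * k) =
          (Subgroup.zpowers (M.f p)).map (MulAut.conj k⁻¹).toMonoidHom := by
        rw [MonoidHom.map_zpowers]
        congr 1
        show _ = k⁻¹ * M.f p * k⁻¹⁻¹
        rw [inv_inv]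
      rw [h6]; exact h5.map _
    have h4 : k⁻¹ * l * k ∈ M.S := by
      apply le_S_of_normal M h3 _ (Subgroup.mem_zpowers _)
      rintro s hs _ ⟨m, rfl⟩
      have h5 : Commute s (k⁻¹ * l * k) := h1 s hs
      have h6 := (h5.zpow_right m).eq
      simp only
      rw [h6, mul_inv_cancel_right]
      exact ⟨m, rfl⟩
    obtain ⟨q, hq⟩ := h4
    have h5 : q ∈ Subgroup.center PG := by
      rw [Subgroup.mem_center_iff]
      intro s
      apply M.f_injective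
      rw [map_mul, map_mul, hq]
      exact h1 _ M.mem_S
    obtain ⟨c1, c2, c3⟩ := mem_center.1 h5
    rw [← hq, f_apply, c1, c2, c3, w_zero]
    simp
  have h1 := key M.x ⟨⟨0, 1, 0, 0⟩, x_mem_SL, f_x M⟩
  have h2 := key (M.w (Pi.single 0 1)) ⟨⟨Pi.single 0 1, 0, 0, 0⟩, e0_mem_SL, f_w M _⟩
  have h3 : k⁻¹ * M.x * k ≠ 1 := by
    intro h4
    apply M.x_ne
    calc M.x = k * (k⁻¹ * M.x * k) * k⁻¹ := by group
      _ = 1 := by rw [h4]; group
  rw [← zpowers_eq (orderOf_x M) h1 h3] at h2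
  obtain ⟨m, hm⟩ := h2
  have h4 : M.w (Pi.single 0 1) = M.x ^ m := by
    have e : (k⁻¹ * M.x * k) ^ m = k⁻¹ * M.x ^ m * k := by
      have := (MulAut.conj k⁻¹).toMonoidHom.map_zpow M.x m
      simpa using this.symm
    simp only at hm
    rw [e] at hm
    calc M.w (Pi.single 0 1) = k * (k⁻¹ * M.w (Pi.single 0 1) * k) * k⁻¹ := by group
      _ = M.x ^ m := by rw [← hm]; group
  have h5 : M.f ⟨Pi.single 0 1, 0, 0, 0⟩ = M.f ((⟨0, 1, 0, 0⟩ : PG) ^ m) := by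
    rw [f_w, map_zpow, f_x, h4]
  have h6 := M.f_injective h5
  have h7 : ((⟨0, 1, 0, 0⟩ : PG) ^ m) ∈ Subgroup.center PG := zpow_mem x_mem_center m
  rw [← h6] at h7
  have h8 := congrFun (mem_center.1 h7).1 0
  simp at h8

/-- The image of a subgroup of `PG` under `f` has the same order. -/
theorem card_map (H : Subgroup PG) : Nat.card (H.map M.f) = Nat.card H :=
  Subgroup.card_map_of_injective M.f_injective

theorem case_b (g : G) (hL : ∀ y ∈ PG.SL, ∃ p ∈ PG.SL, M.f p = g * M.f y * g⁻¹)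
    (hV : ∀ y ∈ PG.SV, ∃ p ∈ PG.SA, M.f p = g * M.f y * g⁻¹)
    (h : g * M.x * g⁻¹ ∉ Subgroup.zpowers M.x) : False := by
  set X : Subgroup G := Subgroup.centralizer (M.L : Set G) with hX
  have memX : ∀ k, k ∈ X ↔ ∀ l ∈ M.L, l * k = k * l := fun k => Subgroup.mem_centralizer_iff
  have gL : ∀ l ∈ M.L, g * l * g⁻¹ ∈ M.L := by
    rintro _ ⟨y, hy, rfl⟩
    obtain ⟨p, hp, hpy⟩ := hL y hy
    exact ⟨p, hp, hpy⟩
  have gL' : ∀ l ∈ M.L, g⁻¹ * l * g ∈ M.L := by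
    have h1 : M.L.map (MulAut.conj g).toMonoidHom = M.L := by
      apply Subgroup.eq_of_le_of_card_ge
      · rintro _ ⟨l, hl, rfl⟩
        exact gL l hl
      · rw [Subgroup.card_map_of_injective (MulAut.conj g).injective]
    intro l hl
    rw [← h1] at hl
    obtain ⟨l', hl', rfl⟩ := hl
    have e : g⁻¹ * (MulAut.conj g).toMonoidHom l' * g = l' := by
      show g⁻¹ * (g * l' * g⁻¹) * g = l'
      group
    rw [e]; exact hl'
  have gX : ∀ k ∈ X, g * k * g⁻¹ ∈ X := by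
    intro k hk
    rw [memX] at hk ⊢
    intro l hl
    have h1 := hk _ (gL' l hl)
    calc l * (g * k * g⁻¹) = g * ((g⁻¹ * l * g) * k) * g⁻¹ := by group
      _ = g * (k * (g⁻¹ * l * g)) * g⁻¹ := by rw [h1]
      _ = _ := by group
  have gX' : ∀ k ∈ X, g⁻¹ * k * g ∈ X := by
    intro k hk
    rw [memX] at hk ⊢
    intro l hl
    have h1 := hk _ (gL l hl)
    calc l * (g⁻¹ * k * g) = g⁻¹ * ((g * l * g⁻¹) * k) * g := by group
      _ = g⁻¹ * (k * (g * l * g⁻¹)) * g := by rw [h1]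
      _ = _ := by group
  have xL : M.x ∈ M.L := ⟨⟨0, 1, 0, 0⟩, x_mem_SL, f_x M⟩
  have hXx : ∀ k ∈ X, k * M.x = M.x * k := fun k hk => ((memX k).1 hk _ xL).symm
  -- 5-subgroups of `X`
  have bound : ∀ Q : Subgroup G, IsPGroup 5 Q → Q ≤ X → Nat.card Q ≤ 5 ^ 8 := fun Q hQ hQX =>
    card_le_of_comm_L M hQ (fun q hq l hl => ((memX q).1 (hQX hq) l hl).symm)
  have fX : ∀ {y : PG}, M.f y ∈ X ↔ y ∈ PG.SC := by
    intro y
    constructor
    · intro hy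
      apply mem_SC_of_comm
      apply M.f_injective
      rw [map_mul, map_mul]
      exact ((memX _).1 hy _ ⟨_, e0_mem_SL, rfl⟩).symm
    · intro hy
      rw [memX]
      rintro _ ⟨l, hl, rfl⟩
      rw [← map_mul, ← map_mul, comm_SC_SL hy hl]
  -- `W1`
  set W1 : Subgroup G := SX.map M.f with hW1
  have W1X : W1 ≤ X := by
    rintro _ ⟨y, hy, rfl⟩
    exact fX.2 hy.2
  have W1n : ∀ k ∈ X, ∀ y ∈ W1, k * y * k⁻¹ ∈ W1 := by
    rintro k hk _ ⟨y, hy, rfl⟩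
    obtain ⟨q, hq, hqy⟩ := W_conj M (hXx k hk) (show M.f y ∈ M.W from ⟨y, hy.1, rfl⟩)
    refine ⟨q, ⟨hq, fX.1 ?_⟩, hqy⟩
    rw [hqy]
    exact mul_mem (mul_mem hk (fX.2 hy.2)) (inv_mem hk)
  have W1p : IsPGroup 5 W1 := M.S_isPGroup.to_le (M.map_le_S _)
  set W2 : Subgroup G := W1.map (MulAut.conj g).toMonoidHom with hW2
  have W2X : W2 ≤ X := by
    rintro _ ⟨y, hy, rfl⟩
    exact gX y (W1X hy)
  have W2n : ∀ k ∈ X, ∀ y ∈ W2, k * y * k⁻¹ ∈ W2 := by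
    rintro k hk _ ⟨y, hy, rfl⟩
    refine ⟨g⁻¹ * k * g * y * (g⁻¹ * k * g)⁻¹, W1n _ (gX' k hk) y hy, ?_⟩
    show g * (g⁻¹ * k * g * y * (g⁻¹ * k * g)⁻¹) * g⁻¹ = k * (g * y * g⁻¹) * k⁻¹
    group
  have W2p : IsPGroup 5 W2 := W1p.map _
  -- the intersection is abelian
  have cx : ∀ a ∈ W1, ∀ b ∈ W1, a * b * a⁻¹ * b⁻¹ ∈ Subgroup.zpowers M.x := by
    rintro _ ⟨a, ha, rfl⟩ _ ⟨b, hb, rfl⟩
    rw [← map_mul, ← map_inv, ← map_mul, ← map_inv, ← map_mul, f_apply]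
    obtain ⟨c1, c2, c3⟩ := mem_center.1 (comm_SW ha.1 hb.1)
    rw [c1, c2, c3, w_zero]
    simp
  have hYab : ∀ a ∈ W1 ⊓ W2, ∀ b ∈ W1 ⊓ W2, a * b = b * a := by
    rintro a ⟨ha1, a', ha', rfl⟩ b ⟨hb1, b', hb', rfl⟩
    have h1 := cx _ ha1 _ hb1
    by_contra hne
    set c : G := (MulAut.conj g).toMonoidHom a' * (MulAut.conj g).toMonoidHom b' *
      ((MulAut.conj g).toMonoidHom a')⁻¹ * ((MulAut.conj g).toMonoidHom b')⁻¹ with hc
    have hc1 : c ≠ 1 := by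
      intro h2
      apply hne
      calc (MulAut.conj g).toMonoidHom a' * (MulAut.conj g).toMonoidHom b' =
          c * ((MulAut.conj g).toMonoidHom b' * (MulAut.conj g).toMonoidHom a') := by
            rw [hc]; group
        _ = _ := by rw [h2, one_mul]
    have hc2 : c ∈ Subgroup.zpowers (g * M.x * g⁻¹) := by
      have h3 := cx a' ha' b' hb'
      obtain ⟨m, hm⟩ := h3
      have hm' : M.x ^ m = a' * b' * a'⁻¹ * b'⁻¹ := hm
      refine ⟨m, ?_⟩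
      show (g * M.x * g⁻¹) ^ m = c
      have e : (g * M.x * g⁻¹) ^ m = g * M.x ^ m * g⁻¹ := by
        have := (MulAut.conj g).toMonoidHom.map_zpow M.x m
        simpa using this.symm
      rw [e, hm', hc]
      show g * (a' * b' * a'⁻¹ * b'⁻¹) * g⁻¹ =
        g * a' * g⁻¹ * (g * b' * g⁻¹) * (g * a' * g⁻¹)⁻¹ * (g * b' * g⁻¹)⁻¹
      group
    have h3 := zpowers_eq (orderOf_x M) h1 hc1
    have h4 := zpowers_eq (by rw [orderOf_conj']; exact orderOf_x M) hc2 hc1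
    apply h
    rw [← h3, h4]
    exact Subgroup.mem_zpowers _
  have hYcard : Nat.card (W1 ⊓ W2 : Subgroup G) ≤ 5 ^ 4 := by
    have h1 : (W1 ⊓ W2 : Subgroup G) ≤ M.f.range := by
      intro y hy
      obtain ⟨q, -, rfl⟩ := hy.1
      exact ⟨q, rfl⟩
    have h2 : ((W1 ⊓ W2).comap M.f).map M.f = W1 ⊓ W2 := Subgroup.map_comap_eq_self h1
    rw [← h2, card_map]
    apply card_le_of_comm_PG
    intro a ha b hb
    apply M.f_injective
    rw [map_mul, map_mul]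
    exact hYab _ ha _ hb
  -- `Q = W1 W2`
  have W2norm : W2 ≤ Subgroup.normalizer (W1 : Set G) :=
    H427.le_normalizer_of_conj fun k hk y hy => W1n k (W2X hk) y hy
  have hQp : IsPGroup 5 (W2 ⊔ W1 : Subgroup G) := W2p.to_sup_of_normal_right' W1p W2norm
  have hQX : W2 ⊔ W1 ≤ X := sup_le W2X W1X
  have hQcard : 5 ^ 8 ≤ Nat.card (W2 ⊔ W1 : Subgroup G) := by
    have h1 := H427.card_sup_mul_card_inf W2norm
    have h2 : Nat.card W2 = Nat.card W1 := Subgroup.card_map_of_injective (MulAut.conj g).injective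
    have h3 : 5 ^ 6 ≤ Nat.card W1 := by rw [hW1, card_map]; exact card_SX
    rw [h2, inf_comm] at h1
    by_contra hlt
    push Not at hlt
    have h4 : Nat.card (W2 ⊔ W1 : Subgroup G) * Nat.card (W1 ⊓ W2 : Subgroup G) < 5 ^ 8 * 5 ^ 4 := by
      have h5 : 0 < Nat.card (W1 ⊓ W2 : Subgroup G) := Nat.card_pos
      calc _ < 5 ^ 8 * Nat.card (W1 ⊓ W2 : Subgroup G) := Nat.mul_lt_mul_of_pos_right hlt h5
        _ ≤ _ := Nat.mul_le_mul_left _ hYcard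
    have h5 : 5 ^ 6 * 5 ^ 6 ≤ Nat.card W1 * Nat.card W1 := Nat.mul_le_mul h3 h3
    rw [h1] at h4
    have h6 : (5 : ℕ) ^ 6 * 5 ^ 6 < 5 ^ 8 * 5 ^ 4 := lt_of_le_of_lt h5 h4
    norm_num at h6
  -- `C = Q`
  set C : Subgroup G := PG.SC.map M.f with hC
  have hCX : C ≤ X := by
    rintro _ ⟨y, hy, rfl⟩
    exact fX.2 hy
  have hCp : IsPGroup 5 C := M.S_isPGroup.to_le (M.map_le_S _)
  have hCcard : Nat.card C = 5 ^ 8 := by rw [hC, card_map, card_SC]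
  have Qn : ∀ k ∈ X, ∀ y ∈ W2 ⊔ W1, k * y * k⁻¹ ∈ W2 ⊔ W1 := by
    intro k hk y hy
    have h1 : (W2 ⊔ W1).map (MulAut.conj k).toMonoidHom ≤ W2 ⊔ W1 := by
      rw [Subgroup.map_sup]
      refine sup_le_sup ?_ ?_
      · rintro _ ⟨z, hz, rfl⟩
        exact W2n k hk z hz
      · rintro _ ⟨z, hz, rfl⟩
        exact W1n k hk z hz
    exact h1 ⟨y, hy, rfl⟩
  have eqQ : ∀ Q : Subgroup G, (∀ k ∈ X, ∀ y ∈ Q, k * y * k⁻¹ ∈ Q) → IsPGroup 5 Q → Q ≤ X →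
      5 ^ 8 ≤ Nat.card Q → ∀ R : Subgroup G, IsPGroup 5 R → R ≤ X → R ≤ Q := by
    intro Q hQn hQp hQX hQc R hRp hRX
    have h1 : IsPGroup 5 (R ⊔ Q : Subgroup G) :=
      hRp.to_sup_of_normal_right' hQp (H427.le_normalizer_of_conj fun k hk y hy => hQn k (hRX hk) y hy)
    have h2 := bound _ h1 (sup_le hRX hQX)
    have h3 : Q = R ⊔ Q := Subgroup.eq_of_le_of_card_ge le_sup_right (h2.trans hQc)
    rw [h3]; exact le_sup_left
  have hCQ : C = W2 ⊔ W1 := by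
    apply Subgroup.eq_of_le_of_card_ge (eqQ _ Qn hQp hQX hQcard C hCp hCX)
    rw [hCcard]; exact bound _ hQp hQX
  have Cn : ∀ k ∈ X, ∀ y ∈ C, k * y * k⁻¹ ∈ C := by rw [hCQ]; exact Qn
  have Cg : ∀ k : G, (∀ y ∈ X, k * y * k⁻¹ ∈ X) → ∀ y ∈ C, k * y * k⁻¹ ∈ C := by
    intro k hk y hy
    refine eqQ C Cn hCp hCX hCcard.ge (C.map (MulAut.conj k).toMonoidHom) (hCp.map _) ?_ ⟨y, hy, rfl⟩
    rintro _ ⟨z, hz, rfl⟩
    exact hk z (hCX hz)
  have C1 := Cg g gX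
  have C2 := Cg g⁻¹ (fun y hy => by rw [inv_inv]; exact gX' y hy)
  -- the end
  obtain ⟨y, hy, hyi⟩ := exists_SV
  obtain ⟨p, hp, hpy⟩ := hV y hy
  have hfy : M.f y = g⁻¹ * M.f p * g := by rw [hpy]; group
  have hyC : y ∈ PG.SC := by
    have h1 := C2 (M.f p) ⟨p, hp.2.2.2.2, rfl⟩
    rw [inv_inv, ← hfy] at h1
    obtain ⟨q, hq, hqy⟩ := h1
    rw [← M.f_injective hqy]; exact hq
  apply hyi
  refine (mem_SA_of_comm hyC ?_).1
  intro c hc
  obtain ⟨c', hc', hcc⟩ := C1 (M.f c) ⟨c, hc, rfl⟩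
  have h1 : g⁻¹ * M.f (p * c' * p⁻¹ * c'⁻¹) * g ∈ M.L := gL' _ ⟨_, comm_SA hp hc', rfl⟩
  have h2 : g⁻¹ * M.f (p * c' * p⁻¹ * c'⁻¹) * g = M.f (y * c * y⁻¹ * c⁻¹) := by
    simp only [map_mul, map_inv]
    rw [hcc, hfy]
    group
  rw [h2] at h1
  obtain ⟨l, hl, hly⟩ := h1
  rw [← M.f_injective hly]; exact hl

/-- **S5230-P3** -/
theorem not_conj_SA (g : G) (hL : ∀ y ∈ PG.SL, ∃ p ∈ PG.SL, M.f p = g * M.f y * g⁻¹)
    (hV : ∀ y ∈ PG.SV, ∃ p ∈ PG.SA, M.f p = g * M.f y * g⁻¹) : False := by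
  by_cases h : g * M.x * g⁻¹ ∈ Subgroup.zpowers M.x
  · exact case_a M g hV h
  · exact case_b M g hL hV h

end Cfsg.Agent.H738.M5
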